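import Cfsg.Agent.H59.IF.Core

/-!
# S5719, `Ω₇(q)`: the numerical part for subgroups of `(L × L) × L`, `L = PSL₂(q)` (helper59)
-/

set_option autoImplicit false
set_option linter.unusedSectionVars false

namespace Cfsg.Agent.H59.IF

open Subgroup

theorem num_a {q : ℕ} (hq : 5 ≤ q) : 16 * (q ^ 6 * (q ^ 2 + 1) * (q ^ 4 + q ^ 2 + 1)) ≤ (q * (q ^ 2 - 1)) ^ 5 := by
  obtain ⟨m, rfl⟩ : ∃ m, q = m + 5 := ⟨q - 5, by omega⟩
  have h1 : (m + 5) ^ 2 - 1 = m ^ 2 + 10 * m + 24 := by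
    have : (m + 5) ^ 2 = m ^ 2 + 10 * m + 25 := by ring
    omega
  rw [h1]
  have h2 : (16 * ((m + 5) ^ 6 * ((m + 5) ^ 2 + 1) * ((m + 5) ^ 4 + (m + 5) ^ 2 + 1)) : ℤ) ≤
      (((m : ℤ) + 5) * ((m : ℤ) ^ 2 + 10 * m + 24)) ^ 5 := by
    rw [← sub_nonneg]
    ring_nf
    positivity
  exact_mod_cast h2

theorem num_b {q : ℕ} (h5 : 5 ≤ q) (h : q ≤ 11) :
    q ^ 6 * (q ^ 2 + 1) * (q ^ 4 + q ^ 2 + 1) ≤ 2 * (3 * (q + 1) ^ 2) ^ 5 := by
  interval_cases q <;> norm_num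

theorem num_c {q : ℕ} (hq : 5 ≤ q) :
    q ^ 6 * (q ^ 2 + 1) * (q ^ 4 + q ^ 2 + 1) ≤ 2 * ((q + 1) * (q + 1) ^ 2) ^ 5 := by
  obtain ⟨m, rfl⟩ : ∃ m, q = m + 5 := ⟨q - 5, by omega⟩
  have h2 : (((m : ℤ) + 5) ^ 6 * (((m : ℤ) + 5) ^ 2 + 1) * (((m : ℤ) + 5) ^ 4 + ((m : ℤ) + 5) ^ 2 + 1)) ≤
      2 * (((m : ℤ) + 5 + 1) * ((m : ℤ) + 5 + 1) ^ 2) ^ 5 := by
    rw [← sub_nonneg]
    ring_nf
    positivity
  exact_mod_cast h2

theorem num_d {q : ℕ} : (q ^ 6 * (q ^ 2 + 1) * (q ^ 4 + q ^ 2 + 1)) ≤ (q ^ 2 + 1) * ((q + 1) ^ 2) ^ 5 := by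
  have h2 : ((q : ℤ) ^ 6 * ((q : ℤ) ^ 2 + 1) * ((q : ℤ) ^ 4 + (q : ℤ) ^ 2 + 1)) ≤
      ((q : ℤ) ^ 2 + 1) * (((q : ℤ) + 1) ^ 2) ^ 5 := by
    rw [← sub_nonneg]
    ring_nf
    positivity
  exact_mod_cast h2

variable {L : Type*} [Group L] [Finite L] {q : ℕ}

/-- **The numerical part of the case `N = 7`.** -/
theorem LFacts.core7 (h : LFacts L q) (hq : q = 3 ∨ 5 ≤ q) (hm3 : 5 ≤ q → ∀ N : Subgroup L, N ≠ ⊤ → 3 ≤ N.index)
    (hm : 12 ≤ q → ∀ N : Subgroup L, N ≠ ⊤ → q + 1 ≤ N.index) (X : Subgroup ((L × L) × L))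
    (hX1 : ∀ c : L, c ≠ 1 → c * c = 1 → ((1 : L × L), c) ∉ X)
    (hX2 : ∀ a b : L, a ≠ 1 → b ≠ 1 → a * a = 1 → b * b = 1 → ((a, b), (1 : L)) ∉ X)
    (hb : 2 * X.index ^ 5 < q ^ 6 * (q ^ 2 + 1) * (q ^ 4 + q ^ 2 + 1)) :
    (q = 3 ∧ 12 ≤ X.index) ∨ (5 ≤ q ∧ (q + 1) ^ 2 ≤ X.index ∧
      ((∀ a : L, ((a, (1 : L)), (1 : L)) ∈ X) ∨ ∀ b : L, (((1 : L), b), (1 : L)) ∈ X)) := by
  set Y := X.comap (MonoidHom.inl (L × L) L) with hYdef
  have hY : ∀ a b : L, a ≠ 1 → b ≠ 1 → a * a = 1 → b * b = 1 → (a, b) ∉ Y := fun a b h1 h2 h3 h4 h5 =>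
    hX2 a b h1 h2 h3 h4 h5
  have hA := h.claimA (by omega) hY
  have hB : Nat.card L ≤ X.index ∨ (q + 1) * Y.index ≤ X.index := h.claimB (X := X) hX1
  rcases hq with rfl | hq
  · left
    refine ⟨rfl, ?_⟩
    have h1 := h.card
    norm_num at h1
    rcases hB with h2 | h2
    · omega
    · have h3 : (3 + 1) * (3 + 1) ≤ (3 + 1) * Y.index := Nat.mul_le_mul_left _ hA
      omega
  · right
    have hlt : X.index < Nat.card L := by
      by_contra hcon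
      push Not at hcon
      have h1 := h.card
      have h2 : (q * (q ^ 2 - 1)) ^ 5 ≤ (2 * X.index) ^ 5 := by
        rw [← h1]
        exact Nat.pow_le_pow_left (Nat.mul_le_mul_left _ hcon) 5
      have h3 := num_a hq
      have h4 : (2 * X.index) ^ 5 = 32 * X.index ^ 5 := by rw [mul_pow]; norm_num
      omega
    have hB' : (q + 1) * Y.index ≤ X.index := by
      rcases hB with h1 | h1
      · omega
      · exact h1
    have h1 : (q + 1) ^ 2 ≤ X.index := by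
      refine le_trans ?_ hB'
      rw [pow_two]
      exact Nat.mul_le_mul_left _ hA
    refine ⟨hq, h1, ?_⟩
    have hYlt : Y.index < Nat.card L := by
      have h2 : Y.index ≤ (q + 1) * Y.index := Nat.le_mul_of_pos_left _ (by omega)
      omega
    have key : ∀ N : Subgroup L, (q + 1) * N.index ≤ Y.index → N = ⊤ := by
      intro N hN
      by_contra hne
      have h2 : (q + 1) ^ 2 * N.index ≤ X.index := by
        refine le_trans ?_ hB'
        rw [pow_two, mul_assoc]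
        exact Nat.mul_le_mul_left _ hN
      rcases Nat.lt_or_ge q 12 with h12 | h12
      · have h3 := hm3 hq N hne
        have h4 : 3 * (q + 1) ^ 2 ≤ X.index := by
          refine le_trans ?_ h2
          rw [mul_comm]
          exact Nat.mul_le_mul_left _ h3
        have h5 := Nat.pow_le_pow_left h4 5
        have h6 := num_b hq (by omega)
        omega
      · have h3 := hm h12 N hne
        have h4 : (q + 1) * (q + 1) ^ 2 ≤ X.index := by
          refine le_trans ?_ h2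
          rw [mul_comm]
          exact Nat.mul_le_mul_left _ h3
        have h5 := Nat.pow_le_pow_left h4 5
        have h6 := num_c hq
        omega
    rcases h.claimC hY hYlt with ⟨-, h2⟩ | ⟨-, h2⟩
    · left
      intro a
      have h3 := key _ h2
      have h4 : a ∈ Y.comap (MonoidHom.inl L L) := by rw [h3]; exact mem_top _
      exact h4
    · right
      intro b
      have h3 := key _ h2
      have h4 : b ∈ Y.comap (MonoidHom.inr L L) := by rw [h3]; exact mem_top _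
      exact h4

end Cfsg.Agent.H59.IF
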