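import Cfsg.Agent.H59.IF.Fin
import Cfsg.Agent.H520.IF.ExFund
import Cfsg.Agent.H100.IF.Uniq
import Cfsg.Agent.H198.IF.EndT2
import Cfsg.Agent.H198.IF.Step
import Cfsg.Agent.H237.IF.MinFive
import Cfsg.Agent.H601.IF.NegFour
import Cfsg.Agent.H94.IF.CZero
import Cfsg.Agent.H989.Fx.Nine
import Cfsg.Agent.H807.IF.Odd
import Cfsg.Agent.H276.IF.RowFin

/-!
# S5719, `Ω₇(q)`, `Ω₉(q)`, `q` odd: the cell `CellsO.odd_mid` (helper59)

`step7`, `claim7` : no involution with `-1` space of dimension 2 in `A` (dimension 7);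
`killE_small` : dimension 7 and 9; `odd_mid` : the cell.
-/

set_option autoImplicit false
set_option linter.unusedSectionVars false

namespace Cfsg.Agent.H59.IF

open QuadraticMap Matrix Module Subgroup
open Cfsg.Agent.LieClassical.OrthCore Cfsg.Agent.LieClassical.OrthTrans Cfsg.Agent.LieClassical.OrthSimple
open Cfsg.Agent.H989.Gs.Gen
open Cfsg.Agent.H989.Fx (Fund fund_ap fund_of_four)
open Cfsg.Agent.UGT.U2.FOne.Orth (Four tl)
open Cfsg.Agent.H112.Row2.OrthExt (QU QU_apply polar_QU)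
open Cfsg.Agent.H198.IF (Neg Fix neg₂ mem_Neg mem_Fix xt xt_comm xt_S)
open Cfsg.Agent.H520.IF (Tri)
open Cfsg.Agent.H209.Fxy (IF KillE)

variable {F V : Type*} [Field F] [AddCommGroup V] [Module F V] {Q : QuadraticForm F V}
variable [Finite F] [FiniteDimensional F V] {A : Subgroup ↥(E Q)} {Γ : Subgroup (MulAut ↥(E Q))}

/-- the step of claim 0 in dimension 7 -/
theorem step7 (h2 : (2 : F) ≠ 0) (hQ : Nondeg Q) [IsSimpleGroup ↥(E Q)] (hN : finrank F V = 7) (h : IF A Γ)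
    {t : ↥(E Q)} (ht : t * t = 1) (hk : finrank F (Neg t) = 2) (htA : t ∈ A) :
    ∀ u w : V, Q u = 0 → polar Q u w = 0 → ap t u = u → ap t w = w → S Q u w ∈ A := by
  have hfin : Finite V := Module.finite_of_finite F
  have hfE : Finite ↥(E Q) := Finite.of_injective (fun g : ↥(E Q) => fun v => ap g v) fun a b hab =>
    ext_ap fun v => congrFun hab v
  have hG : Good Q := LieClassical.OrthFinite.good_of_finite hQ (by omega)
  have hc := H198.IF.isCompl h2 ht
  have hd := Submodule.finrank_add_eq_of_isCompl hc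
  have hna := H520.IF.na_E hQ (by omega)
  have ht1 : t ≠ 1 := by
    rintro rfl
    have h3 : Neg (1 : ↥(E Q)) = ⊥ := by
      rw [eq_bot_iff]
      intro v hv
      have h4 := mem_Neg.1 hv
      rw [ap_one] at h4
      have h5 : (2 : F) • v = 0 := by rw [two_smul]; nth_rewrite 2 [h4]; exact add_neg_cancel v
      exact (Submodule.mem_bot F).2 ((smul_eq_zero.1 h5).resolve_left h2)
    rw [h3, finrank_bot] at hk
    omega
  have hD : Nondeg (QU Q (Fix t)) := H198.IF.nondeg_QU hQ hc (H198.IF.orth h2)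
  have key : A.comap (xt h2 ht) = ⊤ := by
    by_contra hne
    have h1 := H237.IF.min_index_five h2 hD (by omega) _ hne
    rw [Subgroup.index_comap] at h1
    have h3 := H847.IF.lift_E2 h hna (MonoidHom.id _) Function.surjective_id (t := t) htA ht1 ht
      (B := (xt h2 ht).range) (by
        rintro _ ⟨a, rfl⟩
        exact xt_comm h2 ht a)
    have hcl := H989.Fx.cls_le h2 hG (by omega) ht (k := 2) (by rw [← H601.OTri.neg_eq_Vm]; exact hk)
    rw [hN] at hcl
    have h5 : (Nat.card F ^ 3) ^ 5 ≤ (A.relIndex (xt h2 ht).range) ^ 5 := Nat.pow_le_pow_left h1 5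
    have h6 := lt_of_le_of_lt h5 (lt_of_lt_of_le h3 hcl)
    rw [← pow_mul] at h6
    have h7 : 1 < Nat.card F := Finite.one_lt_card
    have h8 := (Nat.pow_lt_pow_iff_right h7).1 h6
    omega
  intro u w hu hw hzu hzw
  have h1 : S (QU Q (Fix t)) ⟨u, hzu⟩ ⟨w, hzw⟩ ∈ A.comap (xt h2 ht) := by
    rw [key]
    exact Subgroup.mem_top _
  rw [Subgroup.mem_comap, xt_S h2 ht ⟨u, hzu⟩ ⟨w, hzw⟩ hu hw] at h1
  exact h1

/-- **claim 0 in dimension 7** -/
theorem claim7 (h2 : (2 : F) ≠ 0) (hQ : Nondeg Q) [IsSimpleGroup ↥(E Q)] (hN : finrank F V = 7) (h : IF A Γ) :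
    ∀ t ∈ A, t * t = 1 → finrank F (Neg t) ≠ 2 := by
  intro t htA ht hk
  exact h.ne_top (H198.IF.end_t2 h2 hQ (by omega) A ht hk htA fun t' ht' hk' htA' => step7 h2 hQ hN h ht' hk' htA')

/-- **claim 0 in dimension 9** -/
theorem claim9 (h2 : (2 : F) ≠ 0) (hQ : Nondeg Q) [IsSimpleGroup ↥(E Q)] (hN : finrank F V = 9) (h : IF A Γ) :
    ∀ t ∈ A, t * t = 1 → finrank F (Neg t) ≠ 2 := by
  have hfin : Finite V := Module.finite_of_finite F
  have hfE : Finite ↥(E Q) := Finite.of_injective (fun g : ↥(E Q) => fun v => ap g v) fun a b hab =>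
    ext_ap fun v => congrFun hab v
  intro t htA ht hk
  refine H94.CZ.claim0 h2 hQ (by omega) (H520.IF.na_E hQ (by omega)) h (MonoidHom.id _) Function.surjective_id ?_
    (t := t) htA ht (Or.inl (by rw [← H601.OTri.neg_eq_Vm]; exact hk))
  intro g hg
  refine ⟨1, fun v => ?_⟩
  have h3 : g = 1 := hg
  rw [h3, one_smul]
  exact ap_one v

/-- **dimension 7 and 9** -/
theorem killE_small (h2 : (2 : F) ≠ 0) (hQ : Nondeg Q) (hN : finrank F V = 7 ∨ finrank F V = 9)
    [IsSimpleGroup ↥(E Q)] : KillE ↥(E Q) := by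
  rintro A Γ hI ⟨t, htA, ht⟩
  have hG : Good Q := LieClassical.OrthFinite.good_of_finite hQ (by omega)
  have hno : ∀ t ∈ A, t * t = 1 → finrank F (Neg t) ≠ 2 := by
    rcases hN with hN | hN
    · exact claim7 h2 hQ hN hI
    · exact claim9 h2 hQ hN hI
  have htt : t * t = 1 := by rw [← pow_two, ← ht, pow_orderOf_eq_one]
  have ht1 : t ≠ 1 := by
    rintro rfl
    rw [orderOf_one] at ht
    omega
  obtain ⟨z, hzA, hz⟩ := H520.IF.exists_fund h2 hQ hN hI hno htA htt ht1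
  rcases hN with hN | hN
  · refine seven h2 hQ hN hI hno hz hzA ?_ (H100.IF.unique_fund h2 hQ hN hI hno hz hzA)
    intro e₁ f₁ e₂ f₂ h4
    obtain ⟨a, e, f, k, ⟨a1, a2, a3, a4⟩, ⟨b1, b2, b3, b4⟩, c1, c2, c3, c4⟩ := H100.IF.exists_tri hQ (by omega) h4
    exact ⟨a, e, f, k, ⟨a1, a2, a3, a4⟩, ⟨b1, b2, b3, b4⟩, c1, c2, c3, c4⟩
  · refine H989.Fx.nine h2 hG hN hI ?_ hz hzA
    intro s hs hss
    rw [← H601.OTri.neg_eq_Vm]
    exact hno s hs hss

/-- transport of `KillE` -/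
theorem killE_congr {T T' : Type*} [Group T] [Group T'] (e : T ≃* T') (h : KillE T') : KillE T := by
  rintro A Γ hI ⟨t, htA, ht⟩
  exact h _ _ (hI.map e) ⟨e t, ⟨t, htA, rfl⟩, by rw [← ht]; exact MulEquiv.orderOf_eq e t⟩

/-- **The cell `CellsO.odd_mid`.** -/
theorem odd_mid (F : Type) [Field F] [Fintype F] (m : ℕ) (ho : Odd (Fintype.card F)) (hm : 3 ≤ m) (_ : m ≤ 6)
    (hs : IsSimpleGroup (Cfsg.POmega F (Cfsg.quadFormOdd m F))) :
    KillE (Cfsg.POmega F (Cfsg.quadFormOdd m F)) := by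
  have h2 : (2 : F) ≠ 0 := (two_ne_zero_iff' F).2 ho
  rcases Nat.lt_or_ge m 5 with h5 | h5
  · have hn := LieClassical.OrthForms.nondeg_oddForm m F h2
    have hfr := H807.IF.finrank_odd (F := F) m
    have hs' : IsSimpleGroup ↥(E (LieClassical.OrthForms.oddForm m F)) :=
      H807.IF.simple_odd h2 hn (by rw [hfr]; exact ⟨m, rfl⟩) (by rw [hfr]; omega)
    refine killE_congr (H807.IF.eOdd h2 (by omega)) (killE_small h2 hn ?_)
    rw [hfr]
    omega
  · exact H276.IF.odd_kill F m ho h5 hs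

end Cfsg.Agent.H59.IF
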