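import Cfsg.Agent.H59.IF.Core7
import Cfsg.Agent.H94.IF.KOneB
import Cfsg.Agent.H198.IF.End
import Cfsg.Agent.S0806
import Cfsg.Agent.TwoFusion.SLTwoFacts
import Cfsg.Agent.ClassicalGeometry.PSL2Basic
import Cfsg.Agent.ClassicalGeometry.SLTwoFour

/-!
# S5719, `Ω₇(q)`, `Ω₉(q)`: the facts on `PSL₂(q)` and the transfer to `SL₂ × SL₂ (× SL₂)` (helper59)
-/

set_option autoImplicit false
set_option linter.unusedSectionVars false

namespace Cfsg.Agent.H59.IF

open Subgroup Matrix
open Cfsg.Agent.H198.IF (neg₂)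

variable {F : Type*} [Field F]

/-- `SL₂` -/
abbrev SS (F : Type*) [Field F] := SpecialLinearGroup (Fin 2) F

/-- `PSL₂` -/
abbrev LL (F : Type*) [Field F] := Matrix.ProjectiveSpecialLinearGroup (Fin 2) F

/-- the projection -/
def pr (F : Type*) [Field F] : SS F →* LL F := QuotientGroup.mk' (Subgroup.center (SS F))

theorem pr_surj : Function.Surjective (pr F) := QuotientGroup.mk'_surjective _

theorem neg₂_eq : neg₂ F = -1 := by
  apply Subtype.ext
  rfl

theorem pr_neg : pr F (neg₂ F) = 1 := by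
  rw [neg₂_eq]
  exact (QuotientGroup.eq_one_iff _).2 S0806.neg_one_mem_center

theorem pr_eq_one {s : SS F} (h : pr F s = 1) : s = 1 ∨ s = neg₂ F := by
  have h1 : s ∈ Subgroup.center (SS F) := (QuotientGroup.eq_one_iff _).1 h
  obtain ⟨r, hr, hs⟩ := Matrix.SpecialLinearGroup.mem_center_iff.1 h1
  rw [Fintype.card_fin] at hr
  have h3 : (r - 1) * (r + 1) = 0 := by linear_combination hr
  rcases mul_eq_zero.1 h3 with h4 | h4
  · left
    apply Subtype.ext
    rw [← hs, sub_eq_zero.1 h4]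
    simp
  · right
    apply Subtype.ext
    rw [← hs, eq_neg_of_add_eq_zero_left h4]
    ext i j
    fin_cases i <;> fin_cases j <;> simp [neg₂]

/-- an involution of `PSL₂` comes from an element of square `-1` -/
theorem inv_lift (h2 : (2 : F) ≠ 0) {a : LL F} (ha : a ≠ 1) (ha2 : a * a = 1) :
    ∃ c : SS F, pr F c = a ∧ c * c = neg₂ F := by
  obtain ⟨c, rfl⟩ := pr_surj a
  refine ⟨c, rfl, ?_⟩
  rw [← map_mul] at ha2
  rcases pr_eq_one ha2 with h | h
  · exfalso
    rcases Cfsg.Agent.ClassicalGeometry.SLTwoFour.eq_one_or_neg_one_of_mul_self h2 c h with h3 | h3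
    · exact ha (by rw [h3, map_one])
    · exact ha (by rw [h3, ← neg₂_eq, pr_neg])
  · exact h

variable [Finite F]

theorem two_ne_zero_iff' (F : Type*) [Field F] [Fintype F] : (2 : F) ≠ 0 ↔ Odd (Fintype.card F) :=
  Cfsg.Agent.ClassicalGeometry.PSL2Basic.two_ne_zero_iff_odd F

theorem lfacts (h2 : (2 : F) ≠ 0) : LFacts (LL F) (Nat.card F) where
  k1 R M h1 h3 h4 h5 := (H94.IF.kOne h2 h1 h3 h4 h5).2
  card := by
    have := Fintype.ofFinite F
    have h3 := Cfsg.Agent.ClassicalGeometry.PSL2Basic.card_PSL2_odd F ((two_ne_zero_iff' F).1 h2)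
    rw [Nat.card_eq_fintype_card (α := F), mul_comm, h3]

theorem q_cases (h2 : (2 : F) ≠ 0) : Nat.card F = 3 ∨ 5 ≤ Nat.card F := by
  have := Fintype.ofFinite F
  have h3 := (two_ne_zero_iff' F).1 h2
  rw [← Nat.card_eq_fintype_card] at h3
  have h4 : 1 < Nat.card F := Finite.one_lt_card
  obtain ⟨m, hm⟩ := h3
  omega

theorem index_three (h2 : (2 : F) ≠ 0) (h5 : 5 ≤ Nat.card F) {N : Subgroup (LL F)} (hN : N ≠ ⊤) : 3 ≤ N.index := by
  have := Fintype.ofFinite F
  have : Finite (LL F) := Quotient.finite _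
  have hs : IsSimpleGroup (LL F) := TwoFusion.SLTwoFacts.isSimpleGroup_psl (by
    rw [← Nat.card_eq_fintype_card]
    omega)
  have h1 : N.index ≠ 1 := fun h => hN (Subgroup.index_eq_one.1 h)
  have h0 : N.index ≠ 0 := Subgroup.index_ne_zero_of_finite
  have h3 : N.index ≠ 2 := by
    intro h
    have hn := Subgroup.normal_of_index_eq_two h
    rcases hs.eq_bot_or_eq_top_of_normal N hn with h4 | h4
    · rw [h4, Subgroup.index_bot] at h
      have h6 := (lfacts h2).le_card (q := Nat.card F) (by omega)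
      omega
    · exact hN h4
  omega

theorem index_min (h12 : 12 ≤ Nat.card F) {N : Subgroup (LL F)} (hN : N ≠ ⊤) : Nat.card F + 1 ≤ N.index := by
  have := Fintype.ofFinite F
  by_contra hcon
  push Not at hcon
  rcases S0806.main_le N hN (by omega) with h | h | h <;> omega

section tr

variable {G H : Type*} [Group G] [Group H] (f : G →* H) {X : Subgroup G}

theorem map_mem (hk : f.ker ≤ X) {g : G} (h : f g ∈ X.map f) : g ∈ X := by
  obtain ⟨x, hx, he⟩ := h
  have h1 : x⁻¹ * g ∈ f.ker := by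
    rw [MonoidHom.mem_ker, map_mul, map_inv, he, inv_mul_cancel]
  have h3 := X.mul_mem hx (hk h1)
  rwa [mul_inv_cancel_left] at h3

theorem map_index (hf : Function.Surjective f) (hk : f.ker ≤ X) : (X.map f).index = X.index := by
  rw [Subgroup.index_map, sup_eq_left.2 hk, MonoidHom.range_eq_top.2 hf, Subgroup.index_top, mul_one]

end tr

/-- **(A) for `SL₂ × SL₂`** -/
theorem ss_index (h2 : (2 : F) ≠ 0) (X : Subgroup (SpecialLinearGroup (Fin 2) F × SpecialLinearGroup (Fin 2) F))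
    (hc : (neg₂ F, 1) ∈ X) (hc' : (1, neg₂ F) ∈ X) (hno : ∀ a b, a * a = neg₂ F → b * b = neg₂ F → (a, b) ∉ X) :
    Nat.card F + 1 ≤ X.index := by
  have : Finite (LL F) := Quotient.finite _
  set f : SS F × SS F →* LL F × LL F := (pr F).prodMap (pr F) with hf
  have hsurj : Function.Surjective f := Function.Surjective.prodMap pr_surj pr_surj
  have hk : f.ker ≤ X := by
    rintro ⟨a, b⟩ h
    have h1 : (pr F a, pr F b) = 1 := h
    have h3 : (a, b) = (a, 1) * (1, b) := by rw [Prod.mk_mul_mk, one_mul, mul_one]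
    rw [h3]
    refine X.mul_mem ?_ ?_
    · rcases pr_eq_one (congrArg Prod.fst h1) with h4 | h4
      · rw [h4]; exact X.one_mem
      · rw [h4]; exact hc
    · rcases pr_eq_one (congrArg Prod.snd h1) with h4 | h4
      · rw [h4]; exact X.one_mem
      · rw [h4]; exact hc'
  rw [← map_index f hsurj hk]
  refine (lfacts h2).claimA (by have := q_cases h2; omega) ?_
  intro a b ha hb ha2 hb2 hab
  obtain ⟨c, rfl, hc⟩ := inv_lift h2 ha ha2
  obtain ⟨d, rfl, hd⟩ := inv_lift h2 hb hb2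
  exact hno c d hc hd (map_mem f hk (g := (c, d)) hab)

/-- **the numerical part of `N = 7`, for `SL₂ × SL₂ × SL₂`** -/
theorem sss_core (h2 : (2 : F) ≠ 0) (X : Subgroup ((SS F × SS F) × SS F))
    (z1 : ((neg₂ F, 1), 1) ∈ X) (z2 : ((1, neg₂ F), 1) ∈ X) (z3 : ((1, 1), neg₂ F) ∈ X)
    (hX1 : ∀ c : SS F, c * c = neg₂ F → ((1, 1), c) ∉ X)
    (hX2 : ∀ a b : SS F, a * a = neg₂ F → b * b = neg₂ F → ((a, b), 1) ∉ X)
    (hb : 2 * X.index ^ 5 < Nat.card F ^ 6 * (Nat.card F ^ 2 + 1) * (Nat.card F ^ 4 + Nat.card F ^ 2 + 1)) :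
    (Nat.card F = 3 ∧ 12 ≤ X.index) ∨ (5 ≤ Nat.card F ∧ (Nat.card F + 1) ^ 2 ≤ X.index ∧
      ((∀ a : SS F, ((a, 1), 1) ∈ X) ∨ ∀ b : SS F, ((1, b), 1) ∈ X)) := by
  have : Finite (LL F) := Quotient.finite _
  set f : (SS F × SS F) × SS F →* (LL F × LL F) × LL F := ((pr F).prodMap (pr F)).prodMap (pr F) with hf
  have hsurj : Function.Surjective f :=
    Function.Surjective.prodMap (Function.Surjective.prodMap pr_surj pr_surj) pr_surj
  have hk : f.ker ≤ X := by
    rintro ⟨⟨a, b⟩, c⟩ h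
    have h1 : ((pr F a, pr F b), pr F c) = 1 := h
    have h3 : ((a, b), c) = ((a, 1), 1) * ((1, b), 1) * ((1, 1), c) := by
      simp only [Prod.mk_mul_mk, one_mul, mul_one]
    rw [h3]
    have hab : (pr F a, pr F b) = 1 := congrArg Prod.fst h1
    refine X.mul_mem (X.mul_mem ?_ ?_) ?_
    · rcases pr_eq_one (congrArg Prod.fst hab) with h4 | h4
      · rw [h4]; exact X.one_mem
      · rw [h4]; exact z1
    · rcases pr_eq_one (congrArg Prod.snd hab) with h4 | h4
      · rw [h4]; exact X.one_mem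
      · rw [h4]; exact z2
    · rcases pr_eq_one (congrArg Prod.snd h1) with h4 | h4
      · rw [h4]; exact X.one_mem
      · rw [h4]; exact z3
  rw [← map_index f hsurj hk] at hb ⊢
  have key := (lfacts h2).core7 (q_cases h2) (fun h5 N hN => index_three h2 h5 hN) (fun h12 N hN => index_min h12 hN)
    (X.map f) ?_ ?_ hb
  · rcases key with h | ⟨h1, h3, h4⟩
    · exact Or.inl h
    · refine Or.inr ⟨h1, h3, ?_⟩
      rcases h4 with h4 | h4
      · left
        intro a
        refine map_mem f hk (g := ((a, 1), 1)) ?_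
        have h5 := h4 (pr F a)
        have h6 : f ((a, 1), 1) = ((pr F a, 1), 1) := rfl
        rw [h6]
        exact h5
      · right
        intro b
        refine map_mem f hk (g := ((1, b), 1)) ?_
        have h5 := h4 (pr F b)
        have h6 : f ((1, b), 1) = ((1, pr F b), 1) := rfl
        rw [h6]
        exact h5
  · intro c hc hc2 hcX
    obtain ⟨d, rfl, hd⟩ := inv_lift h2 hc hc2
    exact hX1 d hd (map_mem f hk (g := ((1, 1), d)) hcX)
  · intro a b ha hb ha2 hb2 hab
    obtain ⟨c, rfl, hc⟩ := inv_lift h2 ha ha2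
    obtain ⟨d, rfl, hd⟩ := inv_lift h2 hb hb2
    exact hX2 c d hc hd (map_mem f hk (g := ((c, d), 1)) hab)

end Cfsg.Agent.H59.IF
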