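import Cfsg.Agent.H59.IF.Psl
import Cfsg.Agent.H100.IF.Four
import Cfsg.Agent.H520.IF.Tri
import Cfsg.Agent.H900.IF.Zeta
import Cfsg.Agent.H989.Fx.Cls

/-!
# S5719, `Ω₇(q)`, `q` odd: the centraliser of a fundamental involution (helper59)
-/

set_option autoImplicit false
set_option linter.unusedSectionVars false

namespace Cfsg.Agent.H59.IF

open QuadraticMap Matrix Module Subgroup
open Cfsg.Agent.LieClassical.OrthCore Cfsg.Agent.LieClassical.OrthTrans Cfsg.Agent.LieClassical.OrthSimple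
open Cfsg.Agent.H989.Gs.Gen
open Cfsg.Agent.H989.Fx (Fund fund_ap fund_of_four)
open Cfsg.Agent.UGT.U2.FOne.Orth (Four tl)
open Cfsg.Agent.H198.IF (Neg Fix neg₂ mem_Neg mem_Fix)
open Cfsg.Agent.H520.IF (Tri)
open Cfsg.Agent.H209.Fxy (IF)

variable {F V : Type*} [Field F] [AddCommGroup V] [Module F V] {Q : QuadraticForm F V}

/-- orthogonal to a quadruple -/
structure Pp (Q : QuadraticForm F V) (e₁ f₁ e₂ f₂ x : V) : Prop where
  a : polar Q e₁ x = 0
  b : polar Q f₁ x = 0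
  c : polar Q e₂ x = 0
  d : polar Q f₂ x = 0

/-- an element fixing `a, e, f` commutes with `sig` -/
theorem sig_comm_of_fix {a e f : V} (k : Tri Q a e f) {g : ↥(E Q)} (ga : ap g a = a) (ge : ap g e = e)
    (gf : ap g f = f) (M : SpecialLinearGroup (Fin 2) F) : g * k.sig M = k.sig M * g := by
  apply ext_ap
  intro v
  have pa : polar Q a (ap g v) = polar Q a v := by
    conv_lhs => rw [← ga]
    exact polar_ap g a v
  have pe : polar Q e (ap g v) = polar Q e v := by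
    conv_lhs => rw [← ge]
    exact polar_ap g e v
  have pf : polar Q f (ap g v) = polar Q f v := by
    conv_lhs => rw [← gf]
    exact polar_ap g f v
  rw [ap_mul, ap_mul, k.sig_apply M v, k.sig_apply M (ap g v), pa, pe, pf, ap_add, ap_add, ap_add, ap_smul, ap_smul,
    ap_smul, ga, ge, gf]

section

variable {e₁ f₁ e₂ f₂ a e f : V} (h : Four Q e₁ f₁ e₂ f₂) (k : Tri Q a e f) (ha : Pp Q e₁ f₁ e₂ f₂ a)
  (he : Pp Q e₁ f₁ e₂ f₂ e) (hf : Pp Q e₁ f₁ e₂ f₂ f)

include h k ha he hf in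
theorem sig_comm (M N : SpecialLinearGroup (Fin 2) F) : h.rhoE N * k.sig M = k.sig M * h.rhoE N :=
  sig_comm_of_fix k (H198.IF.rho_fix h ha.a ha.b ha.c ha.d N) (H198.IF.rho_fix h he.a he.b he.c he.d N)
    (H198.IF.rho_fix h hf.a hf.b hf.c hf.d N) M

theorem Pp.swap {x : V} (hx : Pp Q e₁ f₁ e₂ f₂ x) : Pp Q e₁ f₁ f₂ e₂ x := ⟨hx.a, hx.b, hx.d, hx.c⟩

/-- `SL₂ × SL₂ → Ω₄⁺(q)` -/
noncomputable def Phi2 : SS F × SS F →* ↥(E Q) :=
  MonoidHom.noncommCoprod h.rhoE h.swap.rhoE fun a b => H100.IF.comm h a b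

/-- `SL₂ × SL₂ × SL₂ → C(z)` -/
noncomputable def Phi : (SS F × SS F) × SS F →* ↥(E Q) :=
  MonoidHom.noncommCoprod (Phi2 h) k.sig fun p c => by
    change h.rhoE p.1 * h.swap.rhoE p.2 * k.sig c = k.sig c * (h.rhoE p.1 * h.swap.rhoE p.2)
    rw [mul_assoc, sig_comm h.swap k ha.swap he.swap hf.swap, ← mul_assoc, sig_comm h k ha he hf, mul_assoc]

theorem Phi_apply (x y c : SS F) : Phi h k ha he hf ((x, y), c) = h.rhoE x * h.swap.rhoE y * k.sig c := rfl

theorem neg_comm (x : SS F) : neg₂ F * x = x * neg₂ F := by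
  apply Subtype.ext
  change (-1 : Matrix (Fin 2) (Fin 2) F) * x.1 = x.1 * -1
  rw [neg_one_mul, mul_neg_one]

theorem range_le : (Phi h k ha he hf).range ≤ centralizer ({h.rhoE (neg₂ F)} : Set ↥(E Q)) := by
  rintro _ ⟨⟨⟨x, y⟩, c⟩, rfl⟩
  rw [mem_centralizer_iff]
  rintro _ rfl
  have h1 : h.rhoE (neg₂ F) = Phi h k ha he hf ((neg₂ F, 1), 1) := by
    rw [Phi_apply, map_one, map_one, mul_one, mul_one]
  rw [h1, ← map_mul, ← map_mul]
  simp only [Prod.mk_mul_mk, one_mul, mul_one, neg_comm]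

variable [Finite F] [FiniteDimensional F V] {A : Subgroup ↥(E Q)} {Γ : Subgroup (MulAut ↥(E Q))}

include k ha he hf in
/-- **the subgroup `SL₂ SL₂ SL₂` of `C(z)`** -/
theorem seven_core (h2 : (2 : F) ≠ 0) (hQ : Nondeg Q) [IsSimpleGroup ↥(E Q)] (hN : finrank F V = 7)
    (hI : IF A Γ) (hna : ∃ a b : ↥(E Q), a * b ≠ b * a)
    (hno : ∀ t ∈ A, t * t = 1 → finrank F (Neg t) ≠ 2) (hzA : h.rhoE (neg₂ F) ∈ A) :
    ∃ B ≤ centralizer ({h.rhoE (neg₂ F)} : Set ↥(E Q)), (Nat.card F = 3 ∧ 12 ≤ A.relIndex B) ∨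
      ((Nat.card F + 1) ^ 2 ≤ A.relIndex B ∧ (h.rhoE.range ≤ A ∨ h.swap.rhoE.range ≤ A)) := by
  have hfin : Finite V := Module.finite_of_finite F
  have hfE : Finite ↥(E Q) := Finite.of_injective (fun g : ↥(E Q) => fun v => ap g v) fun a b hab =>
    ext_ap fun v => congrFun hab v
  have hG : Good Q := LieClassical.OrthFinite.good_of_finite hQ (by omega)
  set z := h.rhoE (neg₂ F) with hzdef
  have hz : Fund Q z := H198.IF.fund_rho h
  refine ⟨(Phi h k ha he hf).range, range_le h k ha he hf, ?_⟩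
  have h3 : A.relIndex (Phi h k ha he hf).range ^ 5 < (centralizer ({z} : Set ↥(E Q))).index := by
    refine H847.IF.lift_E2 hI hna (MonoidHom.id _) Function.surjective_id (t := z) hzA (hz.ne_one h2) ?_ ?_
    · change z * z = 1
      exact hz.sq
    · intro b hb
      have h4 := range_le h k ha he hf hb
      rw [mem_centralizer_iff] at h4
      exact (h4 z rfl).symm
  have h4 : (A.comap (Phi h k ha he hf)).index = A.relIndex (Phi h k ha he hf).range := Subgroup.index_comap _ _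
  have hT := H989.Fx.ty_odd h2 hQ hN (by decide)
  have h5 := H989.Fx.fund_seven h2 hG hT hz
  have h6 := sss_core h2 (A.comap (Phi h k ha he hf)) ?_ ?_ ?_ ?_ ?_ ?_
  · rw [h4] at h6
    rcases h6 with h6 | ⟨-, h6, h7⟩
    · exact Or.inl h6
    · refine Or.inr ⟨h6, ?_⟩
      rcases h7 with h7 | h7
      · left
        rintro _ ⟨x, rfl⟩
        have h8 : Phi h k ha he hf ((x, 1), 1) ∈ A := h7 x
        rwa [Phi_apply, map_one, map_one, mul_one, mul_one] at h8
      · right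
        rintro _ ⟨x, rfl⟩
        have h8 : Phi h k ha he hf ((1, x), 1) ∈ A := h7 x
        rwa [Phi_apply, map_one, map_one, mul_one, one_mul] at h8
  · rw [mem_comap, Phi_apply, map_one, map_one, mul_one, mul_one]
    exact hzA
  · rw [mem_comap, Phi_apply, map_one, map_one, one_mul, mul_one, H100.IF.swap_neg h]
    exact hzA
  · rw [mem_comap, Phi_apply, map_one, map_one, one_mul, one_mul, k.sig_neg₂]
    exact A.one_mem
  · intro c hc hcA
    rw [mem_comap, Phi_apply, map_one, map_one, one_mul, one_mul] at hcA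
    exact hno _ hcA (k.sig_sq hc) (k.finrank_neg h2 hc)
  · intro x y hx hy hxy
    rw [mem_comap, Phi_apply, map_one, mul_one] at hxy
    obtain ⟨h7, h8⟩ := H100.IF.t2_mul h h2 hQ hx hy
    exact hno _ hxy h7 h8
  · rw [h4]
    have h7 : (2 * (A.relIndex (Phi h k ha he hf).range ^ 5 : ℕ) : ℤ) <
        2 * ((centralizer ({z} : Set ↥(E Q))).index : ℤ) := by
      have : ((A.relIndex (Phi h k ha he hf).range ^ 5 : ℕ) : ℤ) < ((centralizer ({z} : Set ↥(E Q))).index : ℤ) := by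
        exact_mod_cast h3
      linarith
    rw [h5] at h7
    exact_mod_cast h7

end

end Cfsg.Agent.H59.IF
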